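import Mathlib.RingTheory.Localization.Free
import Mathlib.RingTheory.Localization.Module
import Mathlib.RingTheory.Spectrum.Prime.FreeLocus
import Mathlib.RingTheory.LocalProperties.FinitePresentation
import Mathlib.LinearAlgebra.Matrix.Charpoly.LinearMap
import Mathlib.RingTheory.Ideal.Quotient.Basic

/-!
# Free modules on a basic open in terms of elements, and a form of Nakayama's lemma
-/

set_option autoImplicit false

universe u v

namespace Groth.Agent.Ega4late.H522.FreeAway

section free

variable {A : Type u} {M : Type v} [CommRing A] [AddCommGroup M] [Module A M]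

/-- The localization at the powers of `g` is free on the images of the `m i` when these generate `M`
and are independent up to powers of `g`. -/
noncomputable def basisAway (g : A) {r : ℕ} (m : Fin r → M)
    (hs : ∀ y : M, ∃ N : ℕ, g ^ N • y ∈ Submodule.span A (Set.range m))
    (hi : ∀ a : Fin r → A, ∑ i, a i • m i = 0 → ∀ i, ∃ N : ℕ, g ^ N * a i = 0) :
    Module.Basis (Fin r) (Localization.Away g) (LocalizedModule.Away g M) :=
  Module.Basis.mk (v := fun i => LocalizedModule.mkLinearMap (Submonoid.powers g) M (m i))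
    (by
      rw [Fintype.linearIndependent_iff]
      intro c hc i
      obtain ⟨⟨_, ⟨K, rfl⟩⟩, hK⟩ := IsLocalization.exist_integer_multiples_of_finite
        (Submonoid.powers g) c
      choose a ha using hK
      have h1 : LocalizedModule.mkLinearMap (Submonoid.powers g) M (∑ i, a i • m i) = 0 := by
        rw [map_sum]
        have h2 := congrArg (fun z => (g ^ K) • z) hc
        simp only [Finset.smul_sum, smul_zero] at h2
        rw [← h2]
        refine Finset.sum_congr rfl fun j _ => ?_
        rw [map_smul, ← smul_assoc, ← algebraMap_smul (Localization.Away g) (a j), ha j]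
      rw [← map_zero (LocalizedModule.mkLinearMap (Submonoid.powers g) M),
        IsLocalizedModule.eq_iff_exists (Submonoid.powers g)] at h1
      obtain ⟨⟨_, ⟨L, rfl⟩⟩, hL⟩ := h1
      have hL' : ∑ i, (g ^ L * a i) • m i = 0 := by
        simp only [Submonoid.smul_def, smul_zero, Finset.smul_sum, smul_smul] at hL
        exact hL
      obtain ⟨N, hN⟩ := hi _ hL' i
      have h3 : algebraMap A (Localization.Away g) (a i) = 0 := by
        rw [IsLocalization.map_eq_zero_iff (Submonoid.powers g)]
        refine ⟨⟨g ^ (N + L), ⟨_, rfl⟩⟩, ?_⟩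
        change g ^ (N + L) * a i = 0
        rw [pow_add, mul_assoc]; exact hN
      rw [ha i, Algebra.smul_def] at h3
      have h4 : IsUnit (algebraMap A (Localization.Away g) (g ^ K)) :=
        IsLocalization.map_units (Localization.Away g) (⟨g ^ K, ⟨K, rfl⟩⟩ : Submonoid.powers g)
      exact h4.mul_right_eq_zero.1 h3)
    (by
      rintro z -
      obtain ⟨⟨y, ⟨_, ⟨K, rfl⟩⟩⟩, hy⟩ := IsLocalizedModule.surj (Submonoid.powers g)
        (LocalizedModule.mkLinearMap (Submonoid.powers g) M) z
      obtain ⟨N, hN⟩ := hs y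
      obtain ⟨a, ha⟩ := (Submodule.mem_span_range_iff_exists_fun A).1 hN
      have h4 : IsUnit (algebraMap A (Localization.Away g) (g ^ (N + K))) :=
        IsLocalization.map_units (Localization.Away g) (⟨g ^ (N + K), ⟨_, rfl⟩⟩ : Submonoid.powers g)
      set W := Submodule.span (Localization.Away g)
        (Set.range fun i => LocalizedModule.mkLinearMap (Submonoid.powers g) M (m i)) with hW
      have h5 : (algebraMap A (Localization.Away g) (g ^ (N + K))) • z ∈ W := by
        rw [algebraMap_smul, pow_add, mul_smul]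
        have h6 : g ^ K • z = LocalizedModule.mkLinearMap (Submonoid.powers g) M y := hy
        rw [h6, ← map_smul, ← ha, map_sum]
        refine Submodule.sum_mem _ fun i _ => ?_
        rw [map_smul, ← algebraMap_smul (Localization.Away g) (a i)]
        exact Submodule.smul_mem _ _ (Submodule.subset_span ⟨i, rfl⟩)
      obtain ⟨w, hw⟩ := h4
      have h7 : z = (w⁻¹ : (Localization.Away g)ˣ).1 • (algebraMap A (Localization.Away g) (g ^ (N + K))) • z := by
        rw [← hw, smul_smul, Units.inv_mul, one_smul]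
      rw [h7]
      exact Submodule.smul_mem _ _ h5)

/-- A module which is free of finite rank (in terms of elements) near every prime is projective. -/
theorem projective_of_locally (h : ∀ (p : Ideal A) [p.IsPrime], ∃ g : A, g ∉ p ∧
      ∃ (r : ℕ) (m : Fin r → M),
        (∀ y : M, ∃ N : ℕ, g ^ N • y ∈ Submodule.span A (Set.range m)) ∧
        (∀ a : Fin r → A, ∑ i, a i • m i = 0 → ∀ i, ∃ N : ℕ, g ^ N * a i = 0)) :
    Module.Projective A M := by
  let t : Set A := {g | ∃ (r : ℕ) (m : Fin r → M),
        (∀ y : M, ∃ N : ℕ, g ^ N • y ∈ Submodule.span A (Set.range m)) ∧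
        (∀ a : Fin r → A, ∑ i, a i • m i = 0 → ∀ i, ∃ N : ℕ, g ^ N * a i = 0)}
  have ht : Ideal.span t = ⊤ := by
    by_contra hne
    obtain ⟨p, hp, hle⟩ := Ideal.exists_le_maximal _ hne
    have := hp.isPrime
    obtain ⟨g, hg, hg'⟩ := h p
    exact hg (hle (Ideal.subset_span hg'))
  have hfree : ∀ g : t, ∃ r : ℕ, Nonempty (Module.Basis (Fin r) (Localization.Away g.1)
      (LocalizedModule.Away g.1 M)) := by
    rintro ⟨g, r, m, h1, h2⟩
    exact ⟨r, ⟨basisAway g m h1 h2⟩⟩
  have hfp : ∀ g : t, Module.FinitePresentation (Localization.Away g.1)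
      (LocalizedModule.Away g.1 M) := by
    intro g
    obtain ⟨r, ⟨b⟩⟩ := hfree g
    have h1 : Module.Free (Localization.Away g.1) (LocalizedModule.Away g.1 M) := Module.Free.of_basis b
    have h2 : Module.Finite (Localization.Away g.1) (LocalizedModule.Away g.1 M) := Module.Finite.of_basis b
    exact Module.finitePresentation_of_projective _ _
  have : Module.FinitePresentation A M := Module.FinitePresentation.of_localizationSpan t ht hfp
  rw [← Module.freeLocus_eq_univ_iff, Set.eq_univ_iff_forall]
  intro p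
  obtain ⟨g, hg, hg'⟩ := h p.asIdeal
  have hgt : g ∈ t := hg'
  obtain ⟨r, ⟨b⟩⟩ := hfree ⟨g, hgt⟩
  have h1 : Module.Free (Localization.Away g) (LocalizedModule.Away g M) := Module.Free.of_basis b
  have h2 : Module.Projective (Localization.Away g) (LocalizedModule.Away g M) := inferInstance
  exact (Module.basicOpen_subset_freeLocus_iff.2 h2) hg

/-- Near a prime a finite projective module has elements and coordinates as a free module. -/
theorem exists_coordinates [Module.Finite A M] [Module.Projective A M] (p : Ideal A) [p.IsPrime] :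
    ∃ g : A, g ∉ p ∧ ∃ (r : ℕ) (m : Fin r → M) (ψ : M →ₗ[A] (Fin r → Localization.Away g)),
      (∀ i, ψ (m i) = Pi.single i 1) ∧
        ∀ y : M, ∃ N : ℕ, g ^ N • y ∈ Submodule.span A (Set.range m) := by
  have : Module.FinitePresentation A M := Module.finitePresentation_of_projective _ _
  have hfl : (⟨p, inferInstance⟩ : PrimeSpectrum A) ∈ Module.freeLocus A M := by
    rw [Module.freeLocus_eq_univ_iff.2 inferInstance]; trivial
  have hfree : Module.Free (Localization.AtPrime p) (LocalizedModule p.primeCompl M) := hfl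
  obtain ⟨g, hg, hfg, hr⟩ := Module.FinitePresentation.exists_free_localizedModule_powers
    p.primeCompl (LocalizedModule.mkLinearMap p.primeCompl M) (Localization.AtPrime p)
  refine ⟨g, hg, ?_⟩
  have hfin : Module.Finite (Localization.Away g) (LocalizedModule.Away g M) :=
    Module.Finite.of_isLocalizedModule (Submonoid.powers g) (Rₚ := Localization.Away g)
      (LocalizedModule.mkLinearMap (Submonoid.powers g) M)
  let b0 := Module.Free.chooseBasis (Localization.Away g) (LocalizedModule.Away g M)
  let b := b0.reindex (Fintype.equivFin _)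
  set r := Fintype.card (Module.Free.ChooseBasisIndex (Localization.Away g) (LocalizedModule.Away g M))
  have h1 : ∀ i, ∃ (y : M) (N : ℕ), g ^ N • b i =
      LocalizedModule.mkLinearMap (Submonoid.powers g) M y := by
    intro i
    obtain ⟨⟨y, ⟨_, ⟨K, rfl⟩⟩⟩, hy⟩ := IsLocalizedModule.surj (Submonoid.powers g)
      (LocalizedModule.mkLinearMap (Submonoid.powers g) M) (b i)
    exact ⟨y, K, hy⟩
  choose m N hN using h1
  have hu : ∀ K : ℕ, IsUnit (algebraMap A (Localization.Away g) (g ^ K)) := fun K =>
    IsLocalization.map_units (Localization.Away g) (⟨g ^ K, ⟨K, rfl⟩⟩ : Submonoid.powers g)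
  let b' := b.unitsSMul (fun i => (hu (N i)).unit)
  have hb' : ∀ i, b' i = LocalizedModule.mkLinearMap (Submonoid.powers g) M (m i) := by
    intro i
    rw [Module.Basis.unitsSMul_apply, Units.smul_def, IsUnit.unit_spec, algebraMap_smul, hN]
  refine ⟨r, m, (b'.equivFun.toLinearMap.restrictScalars A) ∘ₗ
    LocalizedModule.mkLinearMap (Submonoid.powers g) M, fun i => ?_, fun y => ?_⟩
  · rw [LinearMap.comp_apply, ← hb']
    change b'.equivFun (b' i) = _
    funext j
    rw [Module.Basis.equivFun_self, Pi.single_apply]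
    simp only [eq_comm]
  · have h2 := b'.sum_equivFun (LocalizedModule.mkLinearMap (Submonoid.powers g) M y)
    set c := b'.equivFun (LocalizedModule.mkLinearMap (Submonoid.powers g) M y)
    obtain ⟨⟨_, ⟨K, rfl⟩⟩, hK⟩ := IsLocalization.exist_integer_multiples_of_finite
      (Submonoid.powers g) c
    choose a ha using hK
    have h3 : LocalizedModule.mkLinearMap (Submonoid.powers g) M (g ^ K • y) =
        LocalizedModule.mkLinearMap (Submonoid.powers g) M (∑ i, a i • m i) := by
      rw [map_smul, ← h2, map_sum, Finset.smul_sum]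
      refine Finset.sum_congr rfl fun i _ => ?_
      rw [map_smul, ← hb', ← smul_assoc, ← algebraMap_smul (Localization.Away g) (a i), ha i]
    rw [IsLocalizedModule.eq_iff_exists (Submonoid.powers g)] at h3
    obtain ⟨⟨_, ⟨L, rfl⟩⟩, hL⟩ := h3
    refine ⟨L + K, ?_⟩
    rw [pow_add, mul_smul]
    have h5 : g ^ L • g ^ K • y = g ^ L • ∑ i, a i • m i := hL
    rw [h5]
    exact Submodule.smul_mem _ _ (Submodule.sum_mem _ fun i _ =>
      Submodule.smul_mem _ _ (Submodule.subset_span ⟨i, rfl⟩))

end free

section nakayama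

variable {R : Type u} [CommRing R]

/-- If `J` is finitely generated and contained in the prime `P`, and up to powers of some `g` outside `P`
every element of `J` lies in `K + J²`, then `h J ⊆ K` for some `h` outside `P`. -/
theorem exists_notMem_forall_mul_mem (J K P : Ideal R) [P.IsPrime] (hJP : J ≤ P) (hJ : J.FG) {g : R}
    (hg : g ∉ P) (h : ∀ y ∈ J, ∃ N : ℕ, g ^ N * y ∈ K ⊔ J * J) :
    ∃ h : R, h ∉ P ∧ ∀ y ∈ J, h * y ∈ K := by
  -- a uniform exponent
  obtain ⟨N, hN⟩ : ∃ N : ℕ, ∀ y ∈ J, g ^ N * y ∈ K ⊔ J * J := by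
    obtain ⟨s, hs⟩ := hJ
    have h' : ∀ y : R, ∃ N : ℕ, y ∈ J → g ^ N * y ∈ K ⊔ J * J := by
      intro y
      by_cases hy : y ∈ J
      · obtain ⟨N, hN⟩ := h y hy
        exact ⟨N, fun _ => hN⟩
      · exact ⟨0, fun h => absurd h hy⟩
    choose N hN using h'
    refine ⟨∑ y ∈ s, N y, fun y hy => ?_⟩
    have hle : J ≤ Submodule.comap (LinearMap.mulLeft R (g ^ ∑ y ∈ s, N y)) (K ⊔ J * J) := by
      conv_lhs => rw [← hs]
      rw [Ideal.span, Submodule.span_le]
      intro z hz
      have hzJ : z ∈ J := by rw [← hs]; exact Ideal.subset_span hz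
      change g ^ (∑ y ∈ s, N y) * z ∈ K ⊔ J * J
      have h4 : ∑ y ∈ s, N y = (∑ y ∈ s, N y - N z) + N z :=
        (Nat.sub_add_cancel (Finset.single_le_sum (fun _ _ => Nat.zero_le _) hz)).symm
      rw [h4, pow_add, mul_assoc]
      exact Ideal.mul_mem_left _ _ (hN z hzJ)
    exact hle hy
  let K' : Submodule R J := Submodule.comap J.subtype K
  have : Module.Finite R J := Module.Finite.iff_fg.2 hJ
  let f : Module.End R (↥J ⧸ K') := algebraMap R _ (g ^ N)
  have hf : LinearMap.range f ≤ J • ⊤ := by
    have h1 : ∀ w ∈ J * J, ∃ hw : w ∈ J, K'.mkQ ⟨w, hw⟩ ∈ (J • ⊤ : Submodule R (↥J ⧸ K')) := by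
      intro w hw
      refine Submodule.mul_induction_on hw ?_ ?_
      · intro a ha b hb
        refine ⟨Ideal.mul_mem_left _ _ hb, ?_⟩
        have : K'.mkQ ⟨a * b, Ideal.mul_mem_left _ _ hb⟩ = a • K'.mkQ ⟨b, hb⟩ := by
          rw [← map_smul]; rfl
        rw [this]
        exact Submodule.smul_mem_smul ha trivial
      · rintro a b ⟨ha, ha'⟩ ⟨hb, hb'⟩
        refine ⟨Ideal.add_mem _ ha hb, ?_⟩
        have : K'.mkQ ⟨a + b, Ideal.add_mem _ ha hb⟩ = K'.mkQ ⟨a, ha⟩ + K'.mkQ ⟨b, hb⟩ := by
          rw [← map_add]; rfl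
        rw [this]
        exact Submodule.add_mem _ ha' hb'
    rintro _ ⟨z, rfl⟩
    obtain ⟨⟨y, hy⟩, rfl⟩ := Submodule.mkQ_surjective K' z
    obtain ⟨k, hk, w, hw, hkw⟩ := Submodule.mem_sup.1 (hN y hy)
    obtain ⟨hwJ, hw'⟩ := h1 w hw
    have h2 : f (K'.mkQ ⟨y, hy⟩) = K'.mkQ ⟨w, hwJ⟩ := by
      rw [Module.algebraMap_end_apply, ← map_smul, ← sub_eq_zero, ← map_sub, Submodule.mkQ_apply,
        Submodule.Quotient.mk_eq_zero]
      change g ^ N * y - w ∈ K
      rw [← hkw, add_sub_cancel_right]
      exact hk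
    rw [h2]
    exact hw'
  obtain ⟨p, hp, -, hpc, hp0⟩ :=
    LinearMap.exists_monic_and_natDegree_eq_and_coeff_mem_pow_and_aeval_eq_zero R f J hf
  refine ⟨p.eval (g ^ N), ?_, fun y hy => ?_⟩
  · intro hmem
    rw [Polynomial.eval_eq_sum_range, Finset.sum_range_succ, hp.coeff_natDegree, one_mul] at hmem
    have h3 : ∑ x ∈ Finset.range p.natDegree, p.coeff x * (g ^ N) ^ x ∈ P := by
      refine Ideal.sum_mem _ fun k hk => ?_
      apply Ideal.mul_mem_right
      apply hJP
      have := hpc k
      rw [Finset.mem_range] at hk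
      exact Ideal.pow_le_self (by omega) this
    have h4 := (Ideal.add_mem_iff_right _ h3).1 hmem
    exact hg (‹P.IsPrime›.mem_of_pow_mem _ (‹P.IsPrime›.mem_of_pow_mem _ h4))
  · have h5 : Polynomial.aeval f p = algebraMap R (Module.End R (↥J ⧸ K')) (p.eval (g ^ N)) := by
      rw [Polynomial.aeval_algebraMap_apply, Polynomial.coe_aeval_eq_eval]
    rw [h5] at hp0
    have h6 := congrArg (fun F => F (K'.mkQ ⟨y, hy⟩)) hp0
    simp only [LinearMap.zero_apply] at h6
    rw [Module.algebraMap_end_apply, ← map_smul, Submodule.mkQ_apply,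
      Submodule.Quotient.mk_eq_zero] at h6
    exact h6

end nakayama

end Groth.Agent.Ega4late.H522.FreeAway
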