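import Groth.Agent.Ega4late.H522.SymAway
import Groth.Agent.Ega4late.H522.FreeAway
import Mathlib.RingTheory.Localization.Finiteness

/-!
# Locally quasi-regular ideals: `J` finitely generated, `J/J²` projective and `Sym(J/J²) → gr_J` bijective
-/

set_option autoImplicit false

universe u

namespace Groth.Agent.Ega4late.H522.LocQReg

open Groth.Agent.Ega4late.H516 Groth.Agent.Ega4late.H522.QRegLoc Groth.Agent.Ega4late.H522.SymAway
  Groth.Agent.Ega4late.H522.FreeAway

variable {R : Type u} [CommRing R] {J : Ideal R}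

/-- A locally quasi-regular ideal is finitely generated. -/
theorem fg_of_isLocallyQuasiRegular (h : PP16.IsLocallyQuasiRegular R J) : J.FG := by
  let t : Set R := {g | (J.map (algebraMap R (Localization.Away g))).FG}
  apply Ideal.fg_of_localizationSpan t
  · by_contra hne
    obtain ⟨m, hm, hle⟩ := Ideal.exists_le_maximal _ hne
    have := hm.isPrime
    by_cases hJ : J ≤ m
    · obtain ⟨g, hg, r, f, -, hs⟩ := h m hJ
      apply hg (hle (Ideal.subset_span _))
      change (J.map (algebraMap R (Localization.Away g))).FG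
      rw [← hs]
      exact Submodule.fg_span (Set.finite_range f)
    · obtain ⟨g, hgJ, hg⟩ := SetLike.not_le_iff_exists.1 hJ
      apply hg (hle (Ideal.subset_span _))
      change (J.map (algebraMap R (Localization.Away g))).FG
      have : J.map (algebraMap R (Localization.Away g)) = ⊤ := by
        apply Ideal.eq_top_of_isUnit_mem _ (Ideal.mem_map_of_mem _ hgJ)
        exact IsLocalization.Away.algebraMap_isUnit g
      rw [this]
      exact ⟨{1}, by simp⟩
  · exact fun g => g.2

theorem toCotangent_smul_mk (a : R) (y : J.Cotangent) :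
    (Ideal.Quotient.mk J a) • y = a • y := rfl

/-- The conormal module of a locally quasi-regular ideal is projective. -/
theorem projective_of_isLocallyQuasiRegular (h : PP16.IsLocallyQuasiRegular R J) :
    Module.Projective (R ⧸ J) J.Cotangent := by
  rw [isLocallyQuasiRegular_iff] at h
  apply projective_of_locally
  intro p hp
  have hP : (p.comap (Ideal.Quotient.mk J)).IsPrime := inferInstance
  have hJP : J ≤ p.comap (Ideal.Quotient.mk J) := by
    intro a ha
    rw [Ideal.mem_comap, Ideal.Quotient.eq_zero_iff_mem.2 ha]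
    exact zero_mem _
  obtain ⟨g, hg, r, x, hx⟩ := h _ hJP
  refine ⟨Ideal.Quotient.mk J g, hg, r, cls x hx.mem, fun y => ?_, fun a ha i => ?_⟩
  · obtain ⟨⟨y, hy⟩, rfl⟩ := J.toCotangent_surjective y
    obtain ⟨N, hN⟩ := hx.span y hy
    obtain ⟨a, ha⟩ := (Submodule.mem_span_range_iff_exists_fun R).1 hN
    refine ⟨N, ?_⟩
    rw [Submodule.mem_span_range_iff_exists_fun]
    refine ⟨fun i => Ideal.Quotient.mk J (a i), ?_⟩
    rw [← map_pow]
    simp only [toCotangent_smul_mk]
    rw [← map_smul]
    have : g ^ N • (⟨y, hy⟩ : J) = ∑ i, a i • (⟨x i, hx.mem i⟩ : J) := by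
      apply Subtype.ext
      rw [Submodule.coe_sum]
      exact ha.symm
    rw [this, map_sum]
    simp only [map_smul]
    rfl
  · choose b hb using fun i => Ideal.Quotient.mk_surjective (a i)
    have h1 : J.toCotangent (∑ i, b i • (⟨x i, hx.mem i⟩ : J)) = 0 := by
      rw [map_sum, ← ha]
      refine Finset.sum_congr rfl fun i _ => ?_
      rw [map_smul, ← hb i]
      rfl
    rw [Ideal.toCotangent_eq_zero] at h1
    have h2 : ((∑ i, b i • (⟨x i, hx.mem i⟩ : J) : J) : R) =
        MvPolynomial.eval x (∑ i, MvPolynomial.C (b i) * MvPolynomial.X i) := by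
      rw [Submodule.coe_sum, map_sum]
      refine Finset.sum_congr rfl fun i _ => ?_
      rw [map_mul, MvPolynomial.eval_C, MvPolynomial.eval_X]
      rfl
    rw [h2] at h1
    obtain ⟨L, hL⟩ := hx.reg 1 _ (MvPolynomial.IsHomogeneous.sum _ _ _ fun i _ => by
      simpa using (MvPolynomial.isHomogeneous_C (Fin r) (b i)).mul (MvPolynomial.isHomogeneous_X R i))
      ⟨0, by rw [pow_zero, one_mul]; exact h1⟩ (Finsupp.single i 1)
    refine ⟨L, ?_⟩
    rw [← hb i, ← map_pow, ← map_mul, Ideal.Quotient.eq_zero_iff_mem]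
    convert hL
    classical
    rw [MvPolynomial.coeff_sum, Finset.sum_eq_single i]
    · rw [MvPolynomial.coeff_C_mul, MvPolynomial.coeff_X, if_pos rfl, mul_one]
    · intro j _ hji
      rw [MvPolynomial.coeff_C_mul, MvPolynomial.coeff_X, if_neg, mul_zero]
      intro h
      exact hji (Finsupp.single_left_injective one_ne_zero h)
    · intro h; exact absurd (Finset.mem_univ _) h

/-- The converse. -/
theorem isLocallyQuasiRegular_of (hJ : J.FG) (hp : Module.Projective (R ⧸ J) J.Cotangent)
    (hs : PP16.SymGrBijective R J) : PP16.IsLocallyQuasiRegular R J := by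
  rw [isLocallyQuasiRegular_iff]
  intro P hP hJP
  have hfinJ : Module.Finite R J := Module.Finite.iff_fg.2 hJ
  have hfin1 : Module.Finite R J.Cotangent :=
    Module.Finite.of_surjective J.toCotangent J.toCotangent_surjective
  have hfin : Module.Finite (R ⧸ J) J.Cotangent := Module.Finite.of_restrictScalars_finite R _ _
  have hp' : (P.map (Ideal.Quotient.mk J)).IsPrime :=
    Ideal.map_isPrime_of_surjective Ideal.Quotient.mk_surjective (by rwa [Ideal.mk_ker])
  obtain ⟨g', hg', r, m, ψ, hψ, hspan⟩ :=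
    exists_coordinates (M := J.Cotangent) (P.map (Ideal.Quotient.mk J))
  obtain ⟨g, rfl⟩ := Ideal.Quotient.mk_surjective g'
  have hg : g ∉ P := fun h => hg' (Ideal.mem_map_of_mem _ h)
  choose x hx using fun i => J.toCotangent_surjective (m i)
  have hxm : ∀ i, cls (fun i => (x i : R)) (fun i => (x i).2) i = m i := hx
  -- Nakayama
  obtain ⟨h, hh, hhJ⟩ := exists_notMem_forall_mul_mem J (Ideal.span (Set.range fun i => (x i : R))) P
    hJP hJ hg (by
      intro y hy
      obtain ⟨N, hN⟩ := hspan (J.toCotangent ⟨y, hy⟩)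
      refine ⟨N, ?_⟩
      obtain ⟨a, ha⟩ := (Submodule.mem_span_range_iff_exists_fun _).1 hN
      choose b hb using fun i => Ideal.Quotient.mk_surjective (a i)
      have h1 : J.toCotangent (g ^ N • ⟨y, hy⟩ - ∑ i, b i • x i) = 0 := by
        rw [map_sub, map_sum, sub_eq_zero, map_smul, ← toCotangent_smul_mk, map_pow, ← ha]
        refine Finset.sum_congr rfl fun i _ => ?_
        rw [map_smul, ← hb i, hx]
        rfl
      rw [Ideal.toCotangent_eq_zero] at h1
      have h2 : g ^ N * y = (∑ i, b i * (x i : R)) + (g ^ N * y - ∑ i, b i * (x i : R)) := by ring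
      rw [h2]
      refine Submodule.add_mem_sup (Ideal.sum_mem _ fun i _ =>
        Ideal.mul_mem_left _ _ (Ideal.subset_span ⟨i, rfl⟩)) ?_
      rw [← pow_two]
      simpa using h1)
  let S := Localization.Away (Ideal.Quotient.mk J g)
  have hreg := reg_of_symGrBijective (S := S) hs (g := g) (x := fun i => (x i : R)) (fun i => (x i).2)
    (by
      intro a ha
      rw [IsScalarTower.algebraMap_apply R (R ⧸ J) S,
        IsLocalization.map_eq_zero_iff (Submonoid.powers (Ideal.Quotient.mk J g))] at ha
      obtain ⟨⟨_, ⟨L, rfl⟩⟩, hL⟩ := ha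
      refine ⟨L, ?_⟩
      rw [← Ideal.Quotient.eq_zero_iff_mem, map_mul, map_pow]
      exact hL)
    (ψ.restrictScalars R) (fun i => by rw [hxm i]; exact hψ i)
  refine ⟨g * h, fun hm => (hP.mem_or_mem hm).elim hg hh, r, fun i => (x i : R), fun i => (x i).2,
    fun y hy => ⟨1, ?_⟩, ?_⟩
  · rw [pow_one, mul_assoc]
    exact Ideal.mul_mem_left _ _ (hhJ y hy)
  · rintro n Q hQ ⟨N, hN⟩ d
    obtain ⟨L, hL⟩ := hreg n (MvPolynomial.C (h ^ N) * Q)
      (by simpa using (MvPolynomial.isHomogeneous_C (Fin r) (h ^ N)).mul hQ)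
      ⟨N, by
        rw [map_mul, MvPolynomial.eval_C, ← mul_assoc, ← mul_pow]
        exact hN⟩ d
    rw [MvPolynomial.coeff_C_mul] at hL
    refine ⟨L + N, ?_⟩
    have : (g * h) ^ (L + N) * MvPolynomial.coeff d Q =
        (h ^ L * g ^ N) * (g ^ L * (h ^ N * MvPolynomial.coeff d Q)) := by ring
    rw [this]
    exact Ideal.mul_mem_left _ _ hL

/-- The characterization of locally quasi-regular ideals. -/
theorem isLocallyQuasiRegular_iff' : PP16.IsLocallyQuasiRegular R J ↔
    J.FG ∧ Module.Projective (R ⧸ J) J.Cotangent ∧ PP16.SymGrBijective R J :=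
  ⟨fun h => ⟨fg_of_isLocallyQuasiRegular h, projective_of_isLocallyQuasiRegular h, symGrBijective h⟩,
    fun h => isLocallyQuasiRegular_of h.1 h.2.1 h.2.2⟩

end Groth.Agent.Ega4late.H522.LocQReg
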