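import Mathlib.RingTheory.Localization.Ideal
import Mathlib.RingTheory.Localization.Away.Basic
import Mathlib.RingTheory.Localization.Integer
import Groth.Prelude.Def_CAlgX
import Groth.Prelude.Def_PP16

/-!
# Quasi-regular sequences on a basic open, in terms of elements of the ring

`QRAt J g x` says, without mentioning `Localization.Away g`, that the images in `R_g` of the family `x` of
elements of `J` generate `J R_g` and form a quasi-regular sequence there.
-/

set_option autoImplicit false

universe u

namespace Groth.Agent.Ega4late.H522.QRegLoc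

open MvPolynomial

variable {R : Type u} [CommRing R]

/-- The images in `R_g` of the family `x` of elements of `J` generate `J R_g` and form a
quasi-regular sequence, phrased in `R`. -/
structure QRAt (J : Ideal R) (g : R) {r : ℕ} (x : Fin r → R) : Prop where
  mem : ∀ i, x i ∈ J
  span : ∀ y ∈ J, ∃ N : ℕ, g ^ N * y ∈ Ideal.span (Set.range x)
  reg : ∀ (n : ℕ) (P : MvPolynomial (Fin r) R), P.IsHomogeneous n →
    (∃ N : ℕ, g ^ N * MvPolynomial.eval x P ∈ J ^ (n + 1)) → ∀ d, ∃ L : ℕ, g ^ L * P.coeff d ∈ J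

theorem algebraMap_mem_map_iff (g : R) (I : Ideal R) (y : R) :
    algebraMap R (Localization.Away g) y ∈ I.map (algebraMap R (Localization.Away g)) ↔
      ∃ N : ℕ, g ^ N * y ∈ I := by
  rw [IsLocalization.algebraMap_mem_map_algebraMap_iff (Submonoid.powers g)]
  constructor
  · rintro ⟨_, ⟨N, rfl⟩, h⟩
    exact ⟨N, h⟩
  · rintro ⟨N, h⟩
    exact ⟨g ^ N, ⟨N, rfl⟩, h⟩

theorem isUnit_algebraMap_pow (g : R) (N : ℕ) :
    IsUnit (algebraMap R (Localization.Away g) (g ^ N)) :=
  IsLocalization.map_units (Localization.Away g) (⟨g ^ N, ⟨N, rfl⟩⟩ : Submonoid.powers g)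

theorem exists_mul_eq (g : R) {I : Ideal R} {z : Localization.Away g}
    (hz : z ∈ I.map (algebraMap R (Localization.Away g))) :
    ∃ (x : R) (N : ℕ), x ∈ I ∧
      z * algebraMap R (Localization.Away g) (g ^ N) = algebraMap R (Localization.Away g) x := by
  obtain ⟨⟨x, ⟨_, ⟨N, rfl⟩⟩⟩, h⟩ := (IsLocalization.mem_map_algebraMap_iff (Submonoid.powers g) _).1 hz
  exact ⟨x, N, x.2, h⟩

/-- Rescaling the variables of a homogeneous polynomial. -/
theorem isHomogeneous_sum_monomial {S : Type u} [CommRing S] {r : ℕ} {n : ℕ}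
    {P : MvPolynomial (Fin r) S} (hP : P.IsHomogeneous n) (c : (Fin r →₀ ℕ) → S) :
    (∑ d ∈ P.support, monomial d (c d)).IsHomogeneous n := by
  refine IsHomogeneous.sum _ _ _ fun d hd => ?_
  apply isHomogeneous_monomial
  rw [Finsupp.degree_eq_weight_one]
  exact hP (mem_support_iff.1 hd)

theorem coeff_sum_monomial {S : Type u} [CommRing S] {r : ℕ}
    (P : MvPolynomial (Fin r) S) (c : (Fin r →₀ ℕ) → S) (hc : ∀ d, d ∉ P.support → c d = 0)
    (d : Fin r →₀ ℕ) :
    coeff d (∑ d ∈ P.support, monomial d (c d)) = c d := by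
  classical
  rw [coeff_sum]
  simp only [coeff_monomial]
  rw [Finset.sum_ite_eq']
  split_ifs with h
  · rfl
  · exact (hc d h).symm

theorem eval_sum_monomial {S : Type u} [CommRing S] {r : ℕ} (f : Fin r → S)
    (P : MvPolynomial (Fin r) S) (c : (Fin r →₀ ℕ) → S) :
    eval f (∑ d ∈ P.support, monomial d (c d)) = ∑ d ∈ P.support, c d * ∏ i, f i ^ d i := by
  rw [map_sum]
  refine Finset.sum_congr rfl fun d _ => ?_
  rw [eval_monomial, Finsupp.prod_fintype _ _ (by simp)]

/-- From a quasi-regular sequence of generators in `R_g` to elements of `J`. -/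
theorem exists_qrAt (J : Ideal R) (g : R) {r : ℕ} (f : Fin r → Localization.Away g)
    (hf : CAlgX.IsQuasiRegular f)
    (hs : Ideal.span (Set.range f) = J.map (algebraMap R (Localization.Away g))) :
    ∃ x : Fin r → R, QRAt J g x := by
  have h1 : ∀ i, ∃ (x : R) (N : ℕ), x ∈ J ∧
      f i * algebraMap R (Localization.Away g) (g ^ N) = algebraMap R (Localization.Away g) x := by
    intro i
    apply exists_mul_eq
    rw [← hs]
    exact Ideal.subset_span ⟨i, rfl⟩
  choose x N hx hN using h1
  have hspan : (Ideal.span (Set.range x)).map (algebraMap R (Localization.Away g)) =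
      J.map (algebraMap R (Localization.Away g)) := by
    apply le_antisymm
    · apply Ideal.map_mono
      rw [Ideal.span_le]
      rintro _ ⟨i, rfl⟩
      exact hx i
    · rw [← hs, Ideal.span_le]
      rintro _ ⟨i, rfl⟩
      have h2 := Ideal.mem_map_of_mem (algebraMap R (Localization.Away g))
        (Ideal.subset_span (s := Set.range x) ⟨i, rfl⟩)
      rw [← hN i] at h2
      exact (Ideal.mul_unit_mem_iff_mem _ (isUnit_algebraMap_pow g (N i))).1 h2
  refine ⟨x, hx, fun y hy => ?_, ?_⟩
  · rw [← algebraMap_mem_map_iff, hspan]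
    exact Ideal.mem_map_of_mem _ hy
  · intro n P hP hN' d
    rw [← algebraMap_mem_map_iff] at hN' ⊢
    rw [Ideal.map_pow, ← hs] at hN'
    set φ := algebraMap R (Localization.Away g) with hφ
    set Q := P.map φ with hQ
    have hQh : Q.IsHomogeneous n := hP.map _
    set Q' := ∑ d ∈ Q.support, monomial d (coeff d Q * ∏ i, φ (g ^ N i) ^ d i) with hQ'
    have h3 : Q'.IsHomogeneous n := isHomogeneous_sum_monomial hQh _
    have h4 : eval f Q' = φ (eval x P) := by
      rw [hQ', eval_sum_monomial]
      have h5 : φ (eval x P) = eval (fun i => φ (x i)) Q := by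
        rw [hQ, eval_map, eval₂_comp]
        rfl
      rw [h5]
      conv_rhs => rw [Q.as_sum]
      rw [map_sum]
      refine Finset.sum_congr rfl fun d _ => ?_
      rw [eval_monomial, Finsupp.prod_fintype _ _ (by simp)]
      simp only [← hN]
      rw [mul_assoc, ← Finset.prod_mul_distrib]
      congr 1
      refine Finset.prod_congr rfl fun i _ => ?_
      rw [mul_pow, mul_comm]
    have h6 := hf n Q' h3 (by rw [h4]; exact hN') d
    rw [hQ', coeff_sum_monomial _ _ (by intro d hd; rw [notMem_support_iff.1 hd, zero_mul]), hs,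
      hQ, coeff_map] at h6
    refine (Ideal.mul_unit_mem_iff_mem _ ?_).1 h6
    rw [IsUnit.prod_univ_iff]
    intro i
    exact (isUnit_algebraMap_pow g (N i)).pow _

/-- From elements of `J` to a quasi-regular sequence of generators in `R_g`. -/
theorem QRAt.isQuasiRegular {J : Ideal R} {g : R} {r : ℕ} {x : Fin r → R} (h : QRAt J g x) :
    Ideal.span (Set.range fun i => algebraMap R (Localization.Away g) (x i)) =
      J.map (algebraMap R (Localization.Away g)) ∧
    CAlgX.IsQuasiRegular (fun i => algebraMap R (Localization.Away g) (x i)) := by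
  have hs : Ideal.span (Set.range fun i => algebraMap R (Localization.Away g) (x i)) =
      J.map (algebraMap R (Localization.Away g)) := by
    have : (Set.range fun i => algebraMap R (Localization.Away g) (x i)) =
        (algebraMap R (Localization.Away g)) '' (Set.range x) := by
      rw [← Set.range_comp]; rfl
    rw [this, ← Ideal.map_span]
    apply le_antisymm
    · apply Ideal.map_mono
      rw [Ideal.span_le]
      rintro _ ⟨i, rfl⟩
      exact h.mem i
    · rw [Ideal.map_le_iff_le_comap]
      intro y hy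
      rw [Ideal.mem_comap, algebraMap_mem_map_iff]
      exact h.span y hy
  refine ⟨hs, ?_⟩
  intro n Q hQ hQm d
  rw [hs] at hQm ⊢
  set φ := algebraMap R (Localization.Away g) with hφ
  obtain ⟨⟨_, ⟨M, rfl⟩⟩, hM⟩ := IsLocalization.exist_integer_multiples (Submonoid.powers g)
    Q.support (fun d => coeff d Q)
  have hM' : ∀ d, ∃ p : R, φ p = φ (g ^ M) * coeff d Q ∧ (d ∉ Q.support → p = 0) := by
    intro d
    by_cases hd : d ∈ Q.support
    · obtain ⟨p, hp⟩ := hM d hd
      refine ⟨p, ?_, fun h => absurd hd h⟩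
      rw [hφ, hp, Algebra.smul_def]
    · exact ⟨0, by rw [notMem_support_iff.1 hd, map_zero, mul_zero], fun _ => rfl⟩
  choose p hp hp0 using hM'
  set P : MvPolynomial (Fin r) R := ∑ d ∈ Q.support, monomial d (p d) with hP
  have hPh : P.IsHomogeneous n := by
    refine IsHomogeneous.sum _ _ _ fun d hd => ?_
    apply isHomogeneous_monomial
    rw [Finsupp.degree_eq_weight_one]
    exact hQ (mem_support_iff.1 hd)
  have hPc : ∀ d, coeff d P = p d := by
    intro d
    classical
    rw [hP, coeff_sum]
    simp only [coeff_monomial]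
    rw [Finset.sum_ite_eq']
    split_ifs with h
    · rfl
    · exact (hp0 d h).symm
  have hPm : P.map φ = C (φ (g ^ M)) * Q := by
    ext d
    rw [coeff_map, coeff_C_mul, hPc, hp]
  have hPe : φ (eval x P) = φ (g ^ M) * eval (fun i => φ (x i)) Q := by
    have h5 : φ (eval x P) = eval (fun i => φ (x i)) (P.map φ) := by
      rw [eval_map, eval₂_comp]
      rfl
    rw [h5, hPm, map_mul, eval_C]
  have h6 : ∃ N : ℕ, g ^ N * eval x P ∈ J ^ (n + 1) := by
    rw [← algebraMap_mem_map_iff, Ideal.map_pow, ← hφ, hPe]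
    exact Ideal.mul_mem_left _ _ hQm
  have h7 := h.reg n P hPh h6 d
  rw [← algebraMap_mem_map_iff, ← hφ, hPc, hp] at h7
  exact (Ideal.unit_mul_mem_iff_mem _ (isUnit_algebraMap_pow g M)).1 h7

/-- Locally quasi-regular ideals in terms of `QRAt`. -/
theorem isLocallyQuasiRegular_iff (J : Ideal R) :
    PP16.IsLocallyQuasiRegular R J ↔
      ∀ (P : Ideal R) [P.IsPrime], J ≤ P → ∃ g : R, g ∉ P ∧ ∃ (r : ℕ) (x : Fin r → R), QRAt J g x := by
  refine forall_congr' fun P => forall_congr' fun _ => forall_congr' fun hP => ⟨?_, ?_⟩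
  · rintro ⟨g, hg, r, f, hf, hs⟩
    obtain ⟨x, hx⟩ := exists_qrAt J g f hf hs
    exact ⟨g, hg, r, x, hx⟩
  · rintro ⟨g, hg, r, x, hx⟩
    exact ⟨g, hg, r, _, hx.isQuasiRegular.2, hx.isQuasiRegular.1⟩

end Groth.Agent.Ega4late.H522.QRegLoc
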