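import Groth.Agent.Ega4late.H516.CanonMap
import Groth.Agent.Ega4late.H518.SymFree
import Groth.Agent.Ega4late.H522.QRegLoc

/-!
# Injectivity of `Sym^n(J/J²) → J^n/J^(n+1)` and quasi-regularity on a basic open
-/

set_option autoImplicit false

universe u

namespace Groth.Agent.Ega4late.H522.SymAway

open Groth.Agent.Ega4late.H516 Groth.Agent.Ega4late.H518.SymFree Groth.Agent.Ega4late.H522.QRegLoc

section span

variable {R ι : Type u} [CommRing R] [Fintype ι] {M : Type u} [AddCommGroup M] [Module R M]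

/-- If the `x i` generate `M` up to powers of `g`, the monomials in the `x i` generate the symmetric power
of `M` up to powers of `g`. -/
theorem exists_pow_smul_eq_sum (g : R) {r : ℕ} (x : Fin r → M)
    (hx : ∀ m : M, ∃ N : ℕ, g ^ N • m ∈ Submodule.span R (Set.range x))
    (z : SymmetricPower R ι M) :
    ∃ (N : ℕ) (c : Sym (Fin r) (Fintype.card ι) → R), g ^ N • z = ∑ s, c s • mono (R := R) x s := by
  set M' := Submodule.span R (Set.range x) with hM'
  let x' : Fin r → M' := fun i => ⟨x i, Submodule.subset_span ⟨i, rfl⟩⟩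
  have hx' : Submodule.span R (Set.range x') = ⊤ := by
    apply Submodule.map_injective_of_injective M'.injective_subtype
    rw [Submodule.map_top, Submodule.range_subtype, Submodule.map_span, ← Set.range_comp]
    rfl
  have h1 : ∀ w : SymmetricPower R ι M', ∃ c : Sym (Fin r) (Fintype.card ι) → R,
      mapL M'.subtype w = ∑ s, c s • mono (R := R) x s := by
    intro w
    have hw : w ∈ Submodule.span R (Set.range (mono (R := R) (ι := ι) x')) := by
      rw [span_mono x' hx']; trivial
    obtain ⟨c, hc⟩ := (Submodule.mem_span_range_iff_exists_fun R).1 hw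
    refine ⟨c, ?_⟩
    rw [← hc, map_sum]
    refine Finset.sum_congr rfl fun s _ => ?_
    rw [map_smul, mono, mapL_tprod]
    rfl
  have h2 : ∃ (N : ℕ) (w : SymmetricPower R ι M'), g ^ N • z = mapL M'.subtype w := by
    have hz : z ∈ Submodule.span R (Set.range (SymmetricPower.tprod R (ι := ι) (M := M))) := by
      rw [SymmetricPower.span_tprod_eq_top]; trivial
    induction hz using Submodule.span_induction with
    | mem z hz =>
      obtain ⟨m, rfl⟩ := hz
      choose N hN using fun i => hx (m i)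
      refine ⟨∑ i, N i, SymmetricPower.tprod R (fun i => (⟨g ^ N i • m i, hN i⟩ : M')), ?_⟩
      rw [mapL_tprod]
      have := (SymmetricPower.tprod R (ι := ι) (M := M)).map_smul_univ (fun i => g ^ N i) m
      rw [Finset.prod_pow_eq_pow_sum] at this
      exact this.symm
    | zero => exact ⟨0, 0, by simp⟩
    | add z w _ _ hz hw =>
      obtain ⟨N, z', hz'⟩ := hz
      obtain ⟨L, w', hw'⟩ := hw
      refine ⟨N + L, g ^ L • z' + g ^ N • w', ?_⟩
      rw [map_add, map_smul, map_smul, ← hz', ← hw', smul_add, smul_smul, smul_smul, pow_add,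
        mul_comm (g ^ L)]
    | smul a z _ hz =>
      obtain ⟨N, z', hz'⟩ := hz
      refine ⟨N, a • z', ?_⟩
      rw [map_smul, ← hz', smul_comm]
  obtain ⟨N, w, hw⟩ := h2
  obtain ⟨c, hc⟩ := h1 w
  exact ⟨N, c, hw.trans hc⟩

end span

section cotangent

variable {R : Type u} [CommRing R] {J : Ideal R}

/-- Elements of `J` kill the symmetric powers of `J/J²` of positive degree. -/
theorem smul_eq_zero_of_mem {ι : Type u} [Nonempty ι] {a : R} (ha : a ∈ J)
    (z : SymmetricPower R ι J.Cotangent) : a • z = 0 := by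
  classical
  have hz : z ∈ Submodule.span R (Set.range (SymmetricPower.tprod R (ι := ι) (M := J.Cotangent))) := by
    rw [SymmetricPower.span_tprod_eq_top]; trivial
  induction hz using Submodule.span_induction with
  | mem z hz =>
    obtain ⟨m, rfl⟩ := hz
    obtain ⟨i⟩ := ‹Nonempty ι›
    have h1 : a • m i = 0 := by
      have h2 : (Ideal.Quotient.mk J a) • m i = 0 := by
        rw [Ideal.Quotient.eq_zero_iff_mem.2 ha, zero_smul]
      exact h2
    have := (SymmetricPower.tprod R (ι := ι) (M := J.Cotangent)).map_update_smul m i a (m i)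
    rw [Function.update_eq_self] at this
    rw [← this, h1, MultilinearMap.map_update_zero]
  | zero => exact smul_zero _
  | add z w _ _ hz hw => rw [smul_add, hz, hw, add_zero]
  | smul b z _ hz => rw [smul_comm, hz, smul_zero]

/-- The classes in `J/J²`. -/
noncomputable def cls {r : ℕ} (x : Fin r → R) (hx : ∀ i, x i ∈ J) (i : Fin r) : J.Cotangent :=
  J.toCotangent ⟨x i, hx i⟩

theorem toFinsupp_degree {r n : ℕ} (s : Sym (Fin r) n) :
    Finsupp.degree (Multiset.toFinsupp (s : Multiset (Fin r))) = n := by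
  rw [Finsupp.degree_eq_sum]
  have h1 : ∀ i, Multiset.toFinsupp (s : Multiset (Fin r)) i = Multiset.count i (s : Multiset (Fin r)) :=
    fun i => Multiset.toFinsupp_apply _ _
  simp only [h1]
  rw [Multiset.sum_count_eq_card (fun a _ => Finset.mem_univ a)]
  exact s.2

/-- The polynomial with given coefficients indexed by multisets. -/
noncomputable def poly {r n : ℕ} (c : Sym (Fin r) n → R) : MvPolynomial (Fin r) R :=
  ∑ s : Sym (Fin r) n, MvPolynomial.monomial (Multiset.toFinsupp (s : Multiset (Fin r))) (c s)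

theorem poly_isHomogeneous {r n : ℕ} (c : Sym (Fin r) n → R) : (poly c).IsHomogeneous n := by
  refine MvPolynomial.IsHomogeneous.sum _ _ _ fun s _ => ?_
  exact MvPolynomial.isHomogeneous_monomial _ (toFinsupp_degree s)

theorem coeff_poly {r n : ℕ} (c : Sym (Fin r) n → R) (s : Sym (Fin r) n) :
    (poly c).coeff (Multiset.toFinsupp (s : Multiset (Fin r))) = c s := by
  classical
  rw [poly, MvPolynomial.coeff_sum, Finset.sum_eq_single s]
  · rw [MvPolynomial.coeff_monomial, if_pos rfl]
  · intro t _ hts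
    rw [MvPolynomial.coeff_monomial, if_neg]
    intro h
    exact hts (Sym.coe_injective (Multiset.toFinsupp.injective h))
  · intro h; exact absurd (Finset.mem_univ _) h

theorem monomial_eq_C_mul_prod {ι : Type u} [Fintype ι] {r : ℕ} (s : Sym (Fin r) (Fintype.card ι)) (a : R) :
    MvPolynomial.monomial (Multiset.toFinsupp (s : Multiset (Fin r))) a =
      MvPolynomial.C a * ∏ i : ι, MvPolynomial.X (rep s i) := by
  rw [prod_X_rep, rep_spec, MvPolynomial.C_mul_monomial, mul_one]

theorem eval_poly {ι : Type u} [Fintype ι] {r : ℕ} (x : Fin r → R) (c : Sym (Fin r) (Fintype.card ι) → R) :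
    MvPolynomial.eval x (poly c) = ∑ s, c s * ∏ i : ι, x (rep s i) := by
  rw [poly, map_sum]
  refine Finset.sum_congr rfl fun s _ => ?_
  rw [monomial_eq_C_mul_prod (ι := ι), map_mul, MvPolynomial.eval_C, map_prod]
  simp only [MvPolynomial.eval_X]

/-- The value of the canonical map on a combination of monomials. -/
theorem canonJ_sum_mono {ι : Type u} [Fintype ι] {r : ℕ} (x : Fin r → R) (hx : ∀ i, x i ∈ J)
    (c : Sym (Fin r) (Fintype.card ι) → R) :
    CanonMap.canonJ R J ι (∑ s, c s • mono (R := R) (cls x hx) s) = 0 ↔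
      MvPolynomial.eval x (poly c) ∈ J ^ (Fintype.card ι + 1) := by
  have hmem : ∀ s : Sym (Fin r) (Fintype.card ι), ∏ i : ι, x (rep s i) ∈ J ^ Fintype.card ι := by
    intro s
    exact CanonGen.prod_univ_mem J _ fun i => hx _
  have h1 : CanonMap.canonJ R J ι (∑ s, c s • mono (R := R) (cls x hx) s) =
      CanonMap.qJ R J (Fintype.card ι) (∑ s, c s • ⟨∏ i : ι, x (rep s i), hmem s⟩) := by
    rw [map_sum, map_sum]
    refine Finset.sum_congr rfl fun s _ => ?_
    rw [map_smul, map_smul]
    congr 1
    exact CanonMap.canonJ_tprod R J (fun i => ⟨x (rep s i), hx _⟩)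
  rw [h1, CanonMap.qJ_eq_zero_iff, eval_poly]
  simp

end cotangent

section main

variable {R : Type u} [CommRing R] {J : Ideal R}

/-- On the basic open where `J` is generated by a quasi-regular sequence the canonical map is injective. -/
theorem exists_pow_smul_eq_zero {g : R} {r : ℕ} {x : Fin r → R} (h : QRAt J g x)
    {ι : Type u} [Fintype ι] [Nonempty ι] (z : SymmetricPower R ι J.Cotangent)
    (hz : CanonMap.canonJ R J ι z = 0) : ∃ L : ℕ, g ^ L • z = 0 := by
  have hspan : ∀ m : J.Cotangent, ∃ N : ℕ, g ^ N • m ∈ Submodule.span R (Set.range (cls x h.mem)) := by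
    intro m
    obtain ⟨⟨y, hy⟩, rfl⟩ := J.toCotangent_surjective m
    obtain ⟨N, hN⟩ := h.span y hy
    obtain ⟨a, ha⟩ := (Submodule.mem_span_range_iff_exists_fun R).1 hN
    refine ⟨N, ?_⟩
    rw [Submodule.mem_span_range_iff_exists_fun]
    refine ⟨a, ?_⟩
    rw [← map_smul]
    have : g ^ N • (⟨y, hy⟩ : J) = ∑ i, a i • (⟨x i, h.mem i⟩ : J) := by
      apply Subtype.ext
      rw [Submodule.coe_sum]
      exact ha.symm
    rw [this, map_sum]
    simp only [map_smul]
    rfl
  obtain ⟨N, c, hc⟩ := exists_pow_smul_eq_sum g (cls x h.mem) hspan z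
  have h1 : CanonMap.canonJ R J ι (g ^ N • z) = 0 := by rw [map_smul, hz, smul_zero]
  rw [hc, canonJ_sum_mono] at h1
  have h2 := h.reg _ _ (poly_isHomogeneous c) ⟨0, by rw [pow_zero, one_mul]; exact h1⟩
  choose L hL using fun s : Sym (Fin r) (Fintype.card ι) =>
    h2 (Multiset.toFinsupp (s : Multiset (Fin r)))
  refine ⟨(∑ s, L s) + N, ?_⟩
  rw [pow_add, mul_smul, hc, Finset.smul_sum]
  refine Finset.sum_eq_zero fun s _ => ?_
  rw [smul_smul]
  apply smul_eq_zero_of_mem
  have h3 := hL s
  rw [coeff_poly] at h3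
  have h4 : ∑ s, L s = (∑ s, L s - L s) + L s :=
    (Nat.sub_add_cancel (Finset.single_le_sum (fun _ _ => Nat.zero_le _) (Finset.mem_univ s))).symm
  rw [h4, pow_add, mul_assoc]
  exact Ideal.mul_mem_left _ _ h3

/-- The canonical maps are bijective if `J` is locally quasi-regular. -/
theorem symGrBijective (h : PP16.IsLocallyQuasiRegular R J) : PP16.SymGrBijective R J := by
  rw [isLocallyQuasiRegular_iff] at h
  rw [CanonMap.symGrBijective_iff]
  intro ι _ _
  rw [← LinearMap.ker_eq_bot, eq_bot_iff]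
  intro z hz
  rw [LinearMap.mem_ker] at hz
  rw [Submodule.mem_bot]
  by_contra hne
  let A : Ideal R := LinearMap.ker (LinearMap.toSpanSingleton R _ z)
  have hA : ∀ a, a ∈ A ↔ a • z = 0 := fun a => by
    rw [LinearMap.mem_ker, LinearMap.toSpanSingleton_apply]
  have hAne : A ≠ ⊤ := by
    intro hA'
    apply hne
    have : (1 : R) ∈ A := by rw [hA']; trivial
    rwa [hA, one_smul] at this
  obtain ⟨P, hP, hAP⟩ := Ideal.exists_le_maximal A hAne
  have hPp := hP.isPrime
  have hJP : J ≤ P := fun a ha => hAP ((hA a).2 (smul_eq_zero_of_mem ha z))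
  obtain ⟨g, hg, r, x, hx⟩ := h P hJP
  obtain ⟨L, hL⟩ := exists_pow_smul_eq_zero hx z hz
  exact hg (hPp.mem_of_pow_mem L (hAP ((hA _).2 hL)))

theorem poly_coeff_eq {r n : ℕ} {P : MvPolynomial (Fin r) R} (hP : P.IsHomogeneous n) :
    poly (n := n) (fun s => P.coeff (Multiset.toFinsupp (s : Multiset (Fin r)))) = P := by
  ext d
  by_cases hd : Finsupp.degree d = n
  · have h1 : Multiset.card (Finsupp.toMultiset d) = n := by
      rw [Finsupp.card_toMultiset, ← hd]
      simp [Finsupp.degree_eq_sum, Finsupp.sum_fintype]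
    obtain ⟨s, h2⟩ : ∃ s : Sym (Fin r) n, d = Multiset.toFinsupp (s : Multiset (Fin r)) :=
      ⟨⟨Finsupp.toMultiset d, h1⟩, (Finsupp.toMultiset_toFinsupp d).symm⟩
    rw [h2, coeff_poly]
  · rw [(poly_isHomogeneous _).coeff_eq_zero hd, hP.coeff_eq_zero hd]

/-- If the canonical maps are injective and the classes of the `x i` are "coordinates" on `J/J²` after
inverting `g`, then the `x i` are quasi-regular after inverting `g`. -/
theorem reg_of_symGrBijective (hJ : PP16.SymGrBijective R J) {g : R} {r : ℕ} {x : Fin r → R}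
    (hx : ∀ i, x i ∈ J) {S : Type u} [CommRing S] [Algebra R S]
    (hS : ∀ a : R, algebraMap R S a = 0 → ∃ L : ℕ, g ^ L * a ∈ J)
    (ψ : J.Cotangent →ₗ[R] (Fin r → S)) (hψ : ∀ i, ψ (cls x hx i) = Pi.single i 1) :
    ∀ (n : ℕ) (P : MvPolynomial (Fin r) R), P.IsHomogeneous n →
      (∃ N : ℕ, g ^ N * MvPolynomial.eval x P ∈ J ^ (n + 1)) → ∀ d, ∃ L : ℕ, g ^ L * P.coeff d ∈ J := by
  rw [CanonMap.symGrBijective_iff] at hJ
  -- first the case `N = 0`
  suffices key : ∀ (n : ℕ) (P : MvPolynomial (Fin r) R), P.IsHomogeneous n →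
      MvPolynomial.eval x P ∈ J ^ (n + 1) → ∀ d, ∃ L : ℕ, g ^ L * P.coeff d ∈ J by
    rintro n P hP ⟨N, hN⟩ d
    obtain ⟨L, hL⟩ := key n (MvPolynomial.C (g ^ N) * P)
      (by simpa using (MvPolynomial.isHomogeneous_C (Fin r) (g ^ N)).mul hP)
      (by rw [map_mul, MvPolynomial.eval_C]; exact hN) d
    rw [MvPolynomial.coeff_C_mul, ← mul_assoc, ← pow_add] at hL
    exact ⟨_, hL⟩
  intro n P hP hPm d
  rcases Nat.eq_zero_or_pos n with rfl | hn
  · by_cases hd : d = 0
    · subst hd
      have h1 : P = MvPolynomial.C (P.coeff 0) := by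
        apply MvPolynomial.totalDegree_eq_zero_iff_eq_C.1
        exact Nat.le_zero.1 hP.totalDegree_le
      rw [h1, MvPolynomial.eval_C] at hPm
      refine ⟨0, ?_⟩
      simpa using hPm
    · refine ⟨0, ?_⟩
      rw [hP.coeff_eq_zero (by rwa [Ne, Finsupp.degree_eq_zero_iff])]
      simp
  · have hne : Nonempty (Fin n) := ⟨⟨0, hn⟩⟩
    let ι : Type u := ULift.{u} (Fin n)
    have hcard : Fintype.card ι = n := by simp [ι]
    have hP' : P.IsHomogeneous (Fintype.card ι) := by rw [hcard]; exact hP
    set c : Sym (Fin r) (Fintype.card ι) → R :=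
      fun s => P.coeff (Multiset.toFinsupp (s : Multiset (Fin r))) with hc
    have hpoly : poly c = P := poly_coeff_eq hP'
    have h1 : (∑ s, c s • mono (R := R) (ι := ι) (cls x hx) s) = 0 := by
      apply hJ ι
      rw [map_zero, canonJ_sum_mono, hpoly, hcard]
      exact hPm
    let ψ' : J.Cotangent →ₗ[R] MvPolynomial (Fin r) S :=
      ∑ i : Fin r, ((LinearMap.mulRight R (MvPolynomial.X i : MvPolynomial (Fin r) S)) ∘ₗ
        ((Algebra.linearMap S (MvPolynomial (Fin r) S)).restrictScalars R) ∘ₗ
          (LinearMap.proj i)) ∘ₗ ψ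
    have hψ' : ∀ i, ψ' (cls x hx i) = MvPolynomial.X i := by
      intro i
      simp only [ψ', LinearMap.sum_apply, LinearMap.comp_apply, hψ]
      rw [Finset.sum_eq_single i]
      · simp
      · intro j _ hji
        simp [hji]
      · intro h; exact absurd (Finset.mem_univ _) h
    have h2 := congrArg (toAlg ψ') h1
    rw [map_zero, map_sum] at h2
    have h3 : (poly c).map (algebraMap R S) = 0 := by
      rw [← h2, poly, map_sum]
      refine Finset.sum_congr rfl fun s _ => ?_
      rw [map_smul, mono, toAlg_tprod, monomial_eq_C_mul_prod (ι := ι), map_mul, map_prod]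
      simp only [MvPolynomial.map_C, MvPolynomial.map_X, hψ']
      rw [Algebra.smul_def]
      rfl
    rw [hpoly] at h3
    apply hS
    rw [← MvPolynomial.coeff_map, h3, MvPolynomial.coeff_zero]

end main

end Groth.Agent.Ega4late.H522.SymAway
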